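import Mathlib

/-!
# Project ZASS (S0690): Zassenhaus' theorem, a perfect fixed-point-free automorphism group is SL(2,5)

Interface (package statements as `Prop`s).  Coordinator: helper51.
-/

set_option autoImplicit false

namespace Cfsg.Agent.Lib.Helper51.Zass

universe u

/-- `G` has a fixed-point-free linear action on a nontrivial finite `ZMod p`-space. -/
def IsFpfLin (G : Type u) [Group G] : Prop :=
  ∃ (p : ℕ) (_ : Fact p.Prime) (V : Type u) (_ : AddCommGroup V) (_ : Module (ZMod p) V)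
    (_ : Finite V) (_ : Nontrivial V) (ρ : G →* Module.End (ZMod p) V),
    ∀ g : G, g ≠ 1 → ∀ v : V, ρ g v = v → v = 0

/-- a "line": a central extension of `A₄` by a group of order 2 (it will be `SL(2,3)`). -/
def IsLine {G : Type u} [Group G] (H : Subgroup G) : Prop :=
  ∃ f : H →* alternatingGroup (Fin 4), Function.Surjective f ∧ Nat.card f.ker = 2

/-- a "plane": a central extension of `A₅` by a group of order 2 (it will be `SL(2,5)`). -/
def IsPlane {G : Type u} [Group G] (H : Subgroup G) : Prop :=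
  ∃ f : H →* alternatingGroup (Fin 5), Function.Surjective f ∧ Nat.card f.ker = 2

/-- the possible shapes of a subgroup generated by elements of order 3. -/
def Shape {G : Type u} [Group G] (H : Subgroup G) : Prop :=
  Nat.card H = 1 ∨ Nat.card H = 3 ∨ IsLine H ∨ IsPlane H

/-- the subgroup generated by all elements of order 3. -/
def N3 (G : Type u) [Group G] : Subgroup G := Subgroup.closure {g : G | orderOf g = 3}

/-! ## Basic packages -/

/-- [LIN] linearization of the statement of S0690. -/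
def PkgLin : Prop :=
  ∀ (K : Type u) [Group K] [Finite K] (G : Subgroup (MulAut K)),
    (∀ φ ∈ G, φ ≠ 1 → ∀ k : K, φ k = k → k = 1) → commutator G = ⊤ → G ≠ ⊥ → IsFpfLin G

/-- [UI] at most one involution. -/
def PkgUI : Prop :=
  ∀ (G : Type u) [Group G] [Finite G], IsFpfLin G →
    ∀ s t : G, orderOf s = 2 → orderOf t = 2 → s = t

/-- [COMM3] commuting elements of order 3 generate the same subgroup. -/
def PkgComm3 : Prop :=
  ∀ (G : Type u) [Group G] [Finite G], IsFpfLin G →
    ∀ a b : G, orderOf a = 3 → orderOf b = 3 → a * b = b * a → b = a ∨ b = a⁻¹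

/-- [CONJ] all subgroups of order 3 are conjugate. -/
def PkgConj : Prop :=
  ∀ (G : Type u) [Group G] [Finite G], IsFpfLin G →
    ∀ P Q : Subgroup G, Nat.card P = 3 → Nat.card Q = 3 →
      ∃ g : G, Q = P.map (MulAut.conj g).toMonoidHom

/-! ## The algebra packages -/

/-- [RL] ring lemma: if the enveloping algebra of `closure S` is spanned by 8 elements over a
commutative subalgebra `Z` commuting with `S`, then `closure S` embeds fixed-point-freely in
`GL₂(E)` for a finite field `E` of characteristic `p`. -/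
def PkgRL : Prop :=
  ∀ (p : ℕ) [Fact p.Prime] (V : Type u) [AddCommGroup V] [Module (ZMod p) V] [Finite V]
    [Nontrivial V] (G : Type u) [Group G] [Finite G] (ρ : G →* Module.End (ZMod p) V),
    (∀ g : G, g ≠ 1 → ∀ v : V, ρ g v = v → v = 0) →
    ∀ (S : Set G) (Z : Subalgebra (ZMod p) (Module.End (ZMod p) V)),
      (∀ z ∈ Z, ∀ z' ∈ Z, z * z' = z' * z) → (∀ z ∈ Z, ∀ g ∈ S, z * ρ g = ρ g * z) →
      ∀ (r : Fin 8 → Module.End (ZMod p) V),
        (∀ i, r i ∈ Algebra.adjoin (ZMod p)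
          ((Z : Set (Module.End (ZMod p) V)) ∪ ρ '' (Subgroup.closure S : Set G))) →
        (∃ c : Fin 8 → Module.End (ZMod p) V, (∀ i, c i ∈ Z) ∧
          (1 : Module.End (ZMod p) V) = ∑ i, c i * r i) →
        (∀ s ∈ S, ∀ j, ∃ c : Fin 8 → Module.End (ZMod p) V, (∀ i, c i ∈ Z) ∧
          ρ s * r j = ∑ i, c i * r i) →
        ∃ (E : Type u) (_ : Field E) (_ : Finite E) (_ : CharP E p)
          (φ : Subgroup.closure S →* Matrix.GeneralLinearGroup (Fin 2) E),
          ∀ g : Subgroup.closure S, g ≠ 1 → IsUnit ((φ g : Matrix (Fin 2) (Fin 2) E) - 1)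

/-- [DKF] Dickson filter: a subgroup of `GL₂(E)` (char `p`) all of whose non-identity elements
`g` have `g - 1` invertible, generated by elements of order 3, has one of the four shapes. -/
def PkgDKF : Prop :=
  ∀ (p : ℕ) [Fact p.Prime] (E : Type u) [Field E] [Finite E] [CharP E p]
    (G : Type u) [Group G] [Finite G] (H : Subgroup G)
    (φ : H →* Matrix.GeneralLinearGroup (Fin 2) E),
    (∀ g : H, g ≠ 1 → IsUnit ((φ g : Matrix (Fin 2) (Fin 2) E) - 1)) →
    Subgroup.closure {g : G | g ∈ H ∧ orderOf g = 3} = H →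
    Shape H

/-- [ENV] = [RL] + [DKF]. -/
def PkgEnv : Prop :=
  ∀ (p : ℕ) [Fact p.Prime] (V : Type u) [AddCommGroup V] [Module (ZMod p) V] [Finite V]
    [Nontrivial V] (G : Type u) [Group G] [Finite G] (ρ : G →* Module.End (ZMod p) V),
    (∀ g : G, g ≠ 1 → ∀ v : V, ρ g v = v → v = 0) →
    ∀ (S : Set G), (∀ g ∈ S, orderOf g = 3) →
    ∀ (Z : Subalgebra (ZMod p) (Module.End (ZMod p) V)),
      (∀ z ∈ Z, ∀ z' ∈ Z, z * z' = z' * z) → (∀ z ∈ Z, ∀ g ∈ S, z * ρ g = ρ g * z) →
      ∀ (r : Fin 8 → Module.End (ZMod p) V),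
        (∀ i, r i ∈ Algebra.adjoin (ZMod p)
          ((Z : Set (Module.End (ZMod p) V)) ∪ ρ '' (Subgroup.closure S : Set G))) →
        (∃ c : Fin 8 → Module.End (ZMod p) V, (∀ i, c i ∈ Z) ∧
          (1 : Module.End (ZMod p) V) = ∑ i, c i * r i) →
        (∀ s ∈ S, ∀ j, ∃ c : Fin 8 → Module.End (ZMod p) V, (∀ i, c i ∈ Z) ∧
          ρ s * r j = ∑ i, c i * r i) →
        Shape (Subgroup.closure S)

/-- [PAIR] two elements of order 3 generate `C₃`, a line or a plane. -/
def PkgPair : Prop :=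
  ∀ (G : Type u) [Group G] [Finite G], IsFpfLin G →
    ∀ a b : G, orderOf a = 3 → orderOf b = 3 → Shape (Subgroup.closure {a, b})

/-- [T1] two distinct lines through a point generate a plane. -/
def PkgT1 : Prop :=
  ∀ (G : Type u) [Group G] [Finite G], IsFpfLin G →
    ∀ w a b : G, orderOf w = 3 → orderOf a = 3 → orderOf b = 3 →
      IsLine (Subgroup.closure {w, a}) → IsLine (Subgroup.closure {w, b}) →
      Subgroup.closure {w, a} ≠ Subgroup.closure {w, b} →
      IsPlane (Subgroup.closure {w, a, b})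

/-! ## The geometry packages -/

/-- [STR24] a line has exactly 4 points, and any two of them generate it. -/
def PkgStr24 : Prop :=
  ∀ (G : Type u) [Group G] [Finite G],
    (∀ s t : G, orderOf s = 2 → orderOf t = 2 → s = t) →
    ∀ L : Subgroup G, IsLine L →
      Set.ncard {P : Subgroup G | Nat.card P = 3 ∧ P ≤ L} = 4 ∧
      ∀ P Q : Subgroup G, Nat.card P = 3 → Nat.card Q = 3 → P ≤ L → Q ≤ L → P ≠ Q → P ⊔ Q = L

/-- [STR120] the `T(5)`-structure of a plane. -/
def PkgStr120 : Prop :=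
  ∀ (G : Type u) [Group G] [Finite G],
    (∀ s t : G, orderOf s = 2 → orderOf t = 2 → s = t) →
    ∀ Pl : Subgroup G, IsPlane Pl →
      (∀ P : Subgroup G, Nat.card P = 3 → P ≤ Pl →
        Set.ncard {Q : Subgroup G | Nat.card Q = 3 ∧ Q ≤ Pl ∧ Nat.card ↥(P ⊔ Q) = 24} = 6) ∧
      (∀ P Q : Subgroup G, Nat.card P = 3 → Nat.card Q = 3 → P ≤ Pl → Q ≤ Pl → P ⊔ Q = Pl →
        Set.ncard {R : Subgroup G | Nat.card R = 3 ∧ R ≤ Pl ∧ Nat.card ↥(P ⊔ R) = 24 ∧
          Nat.card ↥(Q ⊔ R) = 24} = 4) ∧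
      (∀ P Q : Subgroup G, Nat.card P = 3 → Nat.card Q = 3 → P ≤ Pl → Q ≤ Pl →
        Nat.card ↥(P ⊔ Q) = 24 →
        Set.ncard {R : Subgroup G | Nat.card R = 3 ∧ R ≤ Pl ∧ ¬ R ≤ P ⊔ Q ∧
          Nat.card ↥(P ⊔ R) = 24 ∧ Nat.card ↥(Q ⊔ R) = 24} = 1)

/-- [SRG] there is no strongly regular graph with parameters `(v, 3l, l+1, 4)`, `l ≥ 3`. -/
def PkgSRG : Prop :=
  ∀ (P : Type u) [Fintype P] [DecidableEq P] (adj : P → P → Prop) [DecidableRel adj] (l : ℕ),
    Nonempty P → 3 ≤ l →
    (∀ x y, adj x y → adj y x) → (∀ x, ¬ adj x x) →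
    (∀ x, (Finset.univ.filter (fun y => adj x y)).card = 3 * l) →
    (∀ x y, adj x y → (Finset.univ.filter (fun w => adj x w ∧ adj y w)).card = l + 1) →
    (∀ x y, x ≠ y → ¬ adj x y → (Finset.univ.filter (fun w => adj x w ∧ adj y w)).card = 4) →
    False

/-- [ZH] (Zhurtov, finite case) the subgroup generated by the elements of order 3. -/
def PkgZh : Prop :=
  ∀ (G : Type u) [Group G] [Finite G], IsFpfLin G → Shape (N3 G)

/-! ## The final packages -/

/-- [FIN-A] a nontrivial perfect f.p.f. group has an element of order 3. -/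
def PkgFinA : Prop :=
  ∀ (G : Type u) [Group G] [Finite G], IsFpfLin G → commutator G = ⊤ → Nontrivial G →
    ∃ g : G, orderOf g = 3

/-- [FIN-B] in a perfect f.p.f. group `N3 G` is neither of order 3 nor a line. -/
def PkgFinB : Prop :=
  ∀ (G : Type u) [Group G] [Finite G], IsFpfLin G → commutator G = ⊤ →
    Nat.card (N3 G) ≠ 3 ∧ ¬ IsLine (N3 G)

/-- [FIN-C] a perfect f.p.f. group in which `N3 G` is a plane is `SL(2,5)`. -/
def PkgFinC : Prop :=
  ∀ (G : Type u) [Group G] [Finite G], IsFpfLin G → commutator G = ⊤ → IsPlane (N3 G) →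
    Nonempty (G ≃* Matrix.SpecialLinearGroup (Fin 2) (ZMod 5))

/-- [FIN] -/
def PkgFin : Prop :=
  ∀ (G : Type u) [Group G] [Finite G], IsFpfLin G → commutator G = ⊤ → Nontrivial G →
    Shape (N3 G) → Nonempty (G ≃* Matrix.SpecialLinearGroup (Fin 2) (ZMod 5))

end Cfsg.Agent.Lib.Helper51.Zass
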