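import Cfsg.Agent.Lib.Helper51.Zass.Defs

/-!
# Project ZASS (S0690): assemblies
-/

set_option autoImplicit false

namespace Cfsg.Agent.Lib.Helper51.Zass

universe u

/-- [ENV] from [RL] and [DKF]. -/
theorem pkgEnv_of (hRL : PkgRL.{u}) (hDKF : PkgDKF.{u}) : PkgEnv.{u} := by
  intro p _ V _ _ _ _ G _ _ ρ hfpf S hS Z hZ1 hZ2 r hr h1 hmul
  obtain ⟨E, _, _, _, φ, hφ⟩ := hRL p V G ρ hfpf S Z hZ1 hZ2 r hr h1 hmul
  refine hDKF p E G (Subgroup.closure S) φ hφ ?_
  apply le_antisymm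
  · rw [Subgroup.closure_le]
    intro g hg
    exact hg.1
  · apply Subgroup.closure_mono
    intro s hs
    exact ⟨Subgroup.subset_closure hs, hS s hs⟩

/-- [FIN] from [FIN-A], [FIN-B], [FIN-C]. -/
theorem pkgFin_of (hA : PkgFinA.{u}) (hB : PkgFinB.{u}) (hC : PkgFinC.{u}) : PkgFin.{u} := by
  intro G _ _ hL hperf hnt hshape
  rcases hshape with h1 | h3 | hl | hp
  · exfalso
    obtain ⟨g, hg⟩ := hA G hL hperf hnt
    have hmem : g ∈ N3 G := Subgroup.subset_closure hg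
    have hbot : N3 G = ⊥ := Subgroup.card_eq_one.mp h1
    rw [hbot, Subgroup.mem_bot] at hmem
    rw [hmem, orderOf_one] at hg
    omega
  · exact absurd h3 (hB G hL hperf).1
  · exact absurd hl (hB G hL hperf).2
  · exact hC G hL hperf hp

/-- S0690 from [LIN], [ZH], [FIN]. -/
theorem s0690_of (hLin : PkgLin.{u}) (hZh : PkgZh.{u}) (hFin : PkgFin.{u})
    {K : Type u} [Group K] [Finite K] (G : Subgroup (MulAut K))
    (hfpf : ∀ φ ∈ G, φ ≠ 1 → ∀ k : K, φ k = k → k = 1) (hperf : commutator G = ⊤)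
    (hne : G ≠ ⊥) : Nonempty (G ≃* Matrix.SpecialLinearGroup (Fin 2) (ZMod 5)) := by
  have hL : IsFpfLin G := hLin K G hfpf hperf hne
  have hnt : Nontrivial G := (Subgroup.nontrivial_iff_ne_bot G).mpr hne
  exact hFin G hL hperf hnt (hZh G hL)

end Cfsg.Agent.Lib.Helper51.Zass
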