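import Cfsg.Agent.Lib.Helper51.Zass.Asm

/-!
# Project ZASS (S0690): the full assembly from the base packages
-/

set_option autoImplicit false

namespace Cfsg.Agent.Lib.Helper51.Zass

universe u

/-- S0690 from all base packages (in the signatures of the package list). -/
theorem s0690_full (hLin : PkgLin.{u}) (hUI : PkgUI.{u}) (hConj : PkgConj.{u})
    (hRL : PkgRL.{u}) (hDKF : PkgDKF.{u})
    (hPair : PkgEnv.{u} → PkgPair.{u}) (hT1 : PkgEnv.{u} → PkgUI.{u} → PkgT1.{u})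
    (h24 : PkgStr24.{u}) (h120 : PkgStr120.{u}) (hSRG : PkgSRG.{u})
    (hZh : PkgPair.{u} → PkgT1.{u} → PkgStr24.{u} → PkgStr120.{u} → PkgUI.{u} → PkgConj.{u} →
      PkgSRG.{u} → PkgZh.{u})
    (hFinA : PkgFinA.{u}) (hFinB : PkgFinB.{u}) (hFinC : PkgFinC.{u})
    {K : Type u} [Group K] [Finite K] (G : Subgroup (MulAut K))
    (hfpf : ∀ φ ∈ G, φ ≠ 1 → ∀ k : K, φ k = k → k = 1) (hperf : commutator G = ⊤)
    (hne : G ≠ ⊥) : Nonempty (G ≃* Matrix.SpecialLinearGroup (Fin 2) (ZMod 5)) := by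
  have hEnv : PkgEnv.{u} := pkgEnv_of hRL hDKF
  have hP : PkgPair.{u} := hPair hEnv
  have hT : PkgT1.{u} := hT1 hEnv hUI
  have hZ : PkgZh.{u} := hZh hP hT h24 h120 hUI hConj hSRG
  exact s0690_of hLin hZ (pkgFin_of hFinA hFinB hFinC) G hfpf hperf hne

end Cfsg.Agent.Lib.Helper51.Zass
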